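import Cfsg.Agent.SGn.Basic

/-!
# Standard subgroups of type `Co₃`: definitions
-/

set_option autoImplicit false

namespace Cfsg.Lib.SC3

open Subgroup Cfsg.Lib.Gold Cfsg.Lib.Trans Cfsg.Lib.StdSz Cfsg.Lib.StdW Cfsg.Lib.SGn
open Cfsg.Lib.StdM (Cl)
open Cfsg.Lib.StdX (Nc Clq)
open scoped commutatorElement

variable {G Ω : Type*} [Group G] [Group Ω]

/-- the group is generated by the centralisers of `z` and of a double commutator in `T` -/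
def Al (Γ0 T : Subgroup Ω) (z : Ω) : Prop :=
  ∃ a ∈ T, ∃ b ∈ T, ∃ c ∈ T, ⁅⁅a, b⁆, c⁆ ≠ 1 ∧ Γ0 ≤ (Γ0 ⊓ C1 z) ⊔ (Γ0 ⊓ C1 ⁅⁅a, b⁆, c⁆)

/-- the derived group of the centraliser of `y` -/
abbrev Dy (Γ : Subgroup Ω) (y : Ω) : Subgroup Ω := ⁅Γ ⊓ C1 y, Γ ⊓ C1 y⁆

/-- facts on the centraliser of `z` -/
structure FZ (Γ : Subgroup Ω) (z : Ω) : Prop where
  perf : Γ ⊓ C1 z ≤ ⁅Γ ⊓ C1 z, Γ ⊓ C1 z⁆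
  aut : ∀ φ : MulAut ↥(Γ ⊓ C1 z), ∃ g ∈ Γ ⊓ C1 z, ∀ x : ↥(Γ ⊓ C1 z), (φ x : Ω) = g * x * g⁻¹

/-- facts on the centraliser of `y` -/
structure FY (Γ : Subgroup Ω) (z y f w ν : Ω) : Prop where
  perf : Dy Γ y ≤ ⁅Dy Γ y, Dy Γ y⁆
  fM : f ∈ Dy Γ y
  f11 : f ^ 11 = 1
  f1 : f ≠ 1
  nf : Nc Γ z y f
  c11 : ∀ x ∈ Γ, x ≠ 1 → x ^ 11 = 1 →
    ∃ u, Cl Γ y u ∧ ∀ k ∈ Γ ⊓ C1 x, (∃ i, k ^ 2 ^ i = 1) → k = 1 ∨ k = u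
  wM : w ∈ Dy Γ y
  w2 : w * w = z
  sq4 : ∀ x ∈ Γ ⊓ C1 y, x * x * (x * x) = 1 → x * x = 1 ∨ Cl (Γ ⊓ C1 y) z (x * x)
  ν0 : ν ∈ Γ ⊓ C1 z
  νy : ν * y * ν⁻¹ = y * z
  cM : Γ ⊓ Cs (Dy Γ y ⊓ C1 z) ≤ C1 y

/-- all facts on the model -/
def Mod (Γ : Subgroup Ω) : Prop :=
  ∃ (T : Subgroup Ω) (z y : Ω), Bs Γ Γ T z y 10 7 ∧ Al Γ T z ∧ FZ Γ z ∧ (∃ f w ν, FY Γ z y f w ν) ∧
    Clq Γ Γ z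

theorem Al_eq_1' : type_of% @Al.eq_1 := @Al.eq_1

theorem Mod_eq_1' : type_of% @Mod.eq_1 := @Mod.eq_1

end Cfsg.Lib.SC3
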